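import Mathlib
import Cfsg.Agent.Lib.Helper6.A7.Defs
import Cfsg.Agent.Lib.Helper91.SSFive2

set_option autoImplicit false

/-!
# S0984, package (B2)

In a simple group of order `2520` with `[N(P₅) : C(P₅)] = 2`, the centralizer of a Sylow
`5`-subgroup contains no involution (principal `5`-block, degrees `(6, 7)`, `(4, 3)`, `(9, 8)`).
-/

namespace Cfsg.Agent.Lib.Helper84.A7

open Cfsg Cfsg.Agent.Lib.Helper91.SS

universe u

/-- the solutions of the degree equation for `p = 5`, `e = 2` among divisors of `2520` -/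
theorem arith_2520 (x y : ℕ) (hx : x ∣ 2520) (hy : y ∣ 2520) (hx1 : x ≠ 1) :
    (x % 5 = 1 ∧ y = x + 1 → x = 6) ∧ (x % 5 = 4 ∧ x = y + 1 → x = 4 ∨ x = 9) := by
  have hx' : x ∈ Nat.divisors 2520 := Nat.mem_divisors.mpr ⟨hx, by norm_num⟩
  have hy' : y ∈ Nat.divisors 2520 := Nat.mem_divisors.mpr ⟨hy, by norm_num⟩
  have key : ∀ x ∈ Nat.divisors 2520, ∀ y ∈ Nat.divisors 2520, x ≠ 1 →
      (x % 5 = 1 ∧ y = x + 1 → x = 6) ∧ (x % 5 = 4 ∧ x = y + 1 → x = 4 ∨ x = 9) := by
    decide +kernel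
  exact key x hx' y hy' hx1

/-- a Sylow `5`-subgroup of a group of order `2520` has order `5` -/
theorem card_sylow_five_2520 {G : Type u} [Group G] [Finite G] (hG : Nat.card G = 2520)
    (P : Sylow 5 G) : Nat.card (P : Subgroup G) = 5 := by
  have : Fact (Nat.Prime 5) := ⟨by norm_num⟩
  simpa using Cfsg.Agent.Lib.Helper17.card_sylow_eq_of_card_eq 5 1 504 (by rw [hG]; norm_num) (by norm_num) P

/-- (B2) -/
theorem lemS5Inv2 : Cfsg.Agent.Lib.Helper6.A7.LemS5Inv2.{u} := by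
  intro G _ _ _ hG P hm c hc hc2
  have hGn : ¬ (Nat.card G).Prime := by rw [hG]; norm_num
  have hP : Nat.card (P : Subgroup G) = 5 := card_sylow_five_2520 hG P
  refine case_m2_five' hGn ?_ P hP hm c hc (Or.inl hc2)
  intro x y hx hy hx1
  rw [hG] at hx hy
  exact arith_2520 x y hx hy hx1

end Cfsg.Agent.Lib.Helper84.A7
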