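import Mathlib
import Cfsg.Agent.Lib.Helper6.A7.Defs
import Cfsg.Agent.Lib.Helper84.A7.LemS5Inv2

set_option autoImplicit false

/-!
# S0984, package (B4)

In a simple group of order `2520` with `[N(P₅) : C(P₅)] = 4`, the centralizer of a Sylow
`5`-subgroup contains no involution (principal `5`-block with four signed characters; the value
at the involution removes the degrees `4`, `6`, `9`, and the degree equation has no solution
among `14`, `21`, `24`, `36`).
-/

namespace Cfsg.Agent.Lib.Helper84.A7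

open Cfsg Cfsg.Agent.Lib.Helper91.SS

universe u

/-- candidates for the degrees in the principal `5`-block of a group of order `2520` -/
theorem list_2520 (f : ℕ) (hf : f ∣ 2520) (h1 : f ≠ 1) (hsq : f ^ 2 ≤ 2520)
    (hmod : f % 5 = 1 ∨ f % 5 = 4) : f ∈ [4, 6, 9, 14, 21, 24, 36] := by
  have hf' : f ∈ Nat.divisors 2520 := Nat.mem_divisors.mpr ⟨hf, by norm_num⟩
  have key : ∀ f ∈ Nat.divisors 2520, f ≠ 1 → f ^ 2 ≤ 2520 → (f % 5 = 1 ∨ f % 5 = 4) →
      f ∈ [4, 6, 9, 14, 21, 24, 36] := by decide +kernel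
  exact key f hf' h1 hsq hmod

/-- (B4) -/
theorem lemS5Inv4 : Cfsg.Agent.Lib.Helper6.A7.LemS5Inv4.{u} := by
  intro G _ _ _ hG P hm c hc hc2
  have : Fact (Nat.Prime 5) := ⟨by norm_num⟩
  have hGn : ¬ (Nat.card G).Prime := by rw [hG]; norm_num
  have hP : Nat.card (P : Subgroup G) = 5 := card_sylow_five_2520 hG P
  obtain ⟨χ, a, -, hχ, hrel, -⟩ := block_m4_five hGn P hP hm
  have hdegs : ∀ i, ((χ i : G → ℂ) 1 = (Cfsg.charDegree (χ i : G → ℂ) : ℂ)) ∧
      Cfsg.charDegree (χ i : G → ℂ) ∈ [4, 6, 9, 14, 21, 24, 36] ∧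
      ((Cfsg.charDegree (χ i : G → ℂ) : ℕ) : ℤ) % 5 = a i % 5 := by
    intro i
    obtain ⟨ha, hx1, hxa⟩ := hχ i
    have hirr := (χ i).2
    obtain ⟨hxd, hxpos, hxdvd⟩ := Cfsg.Agent.Lib.Helper79.irr_charDegree hirr
    have hmod := Cfsg.Agent.Lib.Helper90.BrauerDeg.degree_modEq hirr 5 (P : Subgroup G) hP (a i)
        (fun y hy hy1 => hxa y y (isPPart_self (by norm_num) _ hP y hy hy1) hy hy1)
    have hmod' : ((Cfsg.charDegree (χ i : G → ℂ) : ℕ) : ℤ) % 5 = a i % 5 := by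
      have := hmod
      unfold Int.ModEq at this
      exact_mod_cast this
    refine ⟨hxd, ?_, hmod'⟩
    rw [hG] at hxdvd
    apply list_2520 _ hxdvd
    · intro h
      apply hx1
      rw [hxd, h]
      norm_num
    · have := Cfsg.Agent.Lib.Helper80.charDegree_sq_le_card hirr
      rw [hG] at this
      exact this
    · rcases ha with h | h <;> rw [h] at hmod' <;> omega
  obtain ⟨f, hfdef⟩ : ∃ f : Fin 4 → ℕ, f = fun i => Cfsg.charDegree (χ i : G → ℂ) := ⟨_, rfl⟩
  have hfi : ∀ i, Cfsg.charDegree (χ i : G → ℂ) = f i := fun i => by rw [hfdef]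
  have hf1 : ∀ i, (χ i : G → ℂ) 1 = (f i : ℂ) := fun i => by rw [← hfi i]; exact (hdegs i).1
  have hfL : ∀ i, f i ∈ [4, 6, 9, 14, 21, 24, 36] := fun i => by
    rw [← hfi i]; exact (hdegs i).2.1
  have hfmod : ∀ i, (f i : ℤ) % 5 = a i % 5 := fun i => by rw [← hfi i]; exact (hdegs i).2.2
  -- values at the involution
  have hvals : ∀ i, ∃ n k : ℕ, 5 * (n : ℤ) + 2 * (k : ℤ) = (f i : ℤ) + 4 * a i ∧ 1 ≤ k ∧
      2 * k ≤ f i := by
    intro i
    obtain ⟨n, k, h1, h2, h3, -⟩ := involution_value hGn 5 (by norm_num) (P : Subgroup G) hP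
      (χ i) (hχ i).2.1 (a i) (hχ i).2.2 c hc hc2
    rw [hfi i] at h1 h3
    refine ⟨n, k, ?_, h2, h3⟩
    push_cast at h1
    linear_combination h1
  -- the remaining degrees
  have hrest : ∀ i, a i * (f i : ℤ) = 21 ∨ a i * (f i : ℤ) = 36 ∨ a i * (f i : ℤ) = -14 ∨
      a i * (f i : ℤ) = -24 := by
    intro i
    obtain ⟨n, k, h1, h2, h3⟩ := hvals i
    have hL := hfL i
    have hm5 := hfmod i
    simp only [List.mem_cons, List.not_mem_nil, or_false] at hL
    rcases (hχ i).1 with ha | ha <;> rw [ha] at h1 hm5 ⊢ <;>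
      rcases hL with h | h | h | h | h | h | h <;> rw [h] at h1 h3 hm5 ⊢ <;> omega
  have hrel1 : 1 + ∑ i, a i * (f i : ℤ) = 0 := by
    have h0 := hrel 1 (by rw [orderOf_one]; norm_num)
    have h : ((1 + ∑ i, a i * (f i : ℤ) : ℤ) : ℂ) = 0 := by
      push_cast
      rw [← h0]
      congr 1
      exact Finset.sum_congr rfl (fun i _ => by rw [hf1 i])
    exact_mod_cast h
  simp only [Fin.sum_univ_four] at hrel1
  rcases hrest 0 with h0 | h0 | h0 | h0 <;> rcases hrest 1 with h1 | h1 | h1 | h1 <;>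
    rcases hrest 2 with h2 | h2 | h2 | h2 <;> rcases hrest 3 with h3 | h3 | h3 | h3 <;> omega

end Cfsg.Agent.Lib.Helper84.A7
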